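import Mathlib

/-!
A finite check on the overgroups of a Sylow 2-subgroup of `A₆`.
-/

set_option autoImplicit false

namespace H62.LB

namespace A6

open Equiv

/-- A Sylow 2-subgroup of `A₆`. -/
def tl : Fin 8 → Perm (Fin 6) := ![1, swap 1 3 * swap 4 5, swap 0 1 * swap 2 3,
  swap 0 1 * swap 2 3 * (swap 1 3 * swap 4 5), swap 0 2 * swap 4 5, swap 0 2 * swap 1 3,
  swap 1 3 * swap 4 5 * (swap 0 1 * swap 2 3), swap 0 3 * swap 1 2]

/-- A triple transposition. -/
def t2 : Perm (Fin 6) := swap 0 2 * swap 1 3 * swap 4 5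

/-- Some word in `g` has order `n`. -/
def Ord (n : ℕ) (g : Fin 6 → Fin 6) : Prop :=
  ∃ a b, (∀ i, (g ∘ tl a ∘ g ∘ tl b)^[n] i = i) ∧ ∃ i, g (tl a (g (tl b i))) ≠ i

instance decOrd (n : ℕ) (g : Fin 6 → Fin 6) : Decidable (Ord n g) := by unfold Ord; infer_instance

theorem key : ∀ l ∈ (List.finRange 6).permutations', ∀ g : Fin 6 → Fin 6,
    g = (fun i : Fin 6 => l.getD i 0) →
    if ∀ i, swap 4 5 (g i) = g (swap 4 5 i) then (∀ i, t2 (g i) = g (t2 i)) → ∀ i, g^[4] i = i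
    else (∀ i, t2 (g i) = g (t2 i)) ∨ Ord 5 g ∧ Ord 3 g := by
  simp only [forall_eq]
  decide +kernel

theorem key' (g : Perm (Fin 6)) :
    if swap 4 5 * g = g * swap 4 5 then t2 * g = g * t2 → g ^ 4 = 1
    else t2 * g = g * t2 ∨ Ord 5 g ∧ Ord 3 g := by
  simpa only [Equiv.ext_iff, Perm.mul_apply, Perm.iterate_eq_pow, Perm.one_apply] using
    key _ (List.mem_permutations'.2 (Perm.map_finRange_perm g)) g (by
      funext i; fin_cases i <;> rfl)

end A6

end H62.LB
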