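import Mathlib
import Cfsg.Agent.Lib.LieBN.A6
import Cfsg.Agent.Lib.LieBN.Exc
import Cfsg.Agent.Lib.LieBN.Rank

/-!
Overgroups of Sylow subgroups in the simple derived groups `A₆`, `U₃(3)`, `²F₄(2)'`, `L₂(8)`.
-/

set_option autoImplicit false
set_option linter.unusedSectionVars false

namespace H62.LB

open Cfsg Cfsg.Lie H13 H13.BN H62.St H38
open H39 hiding par par_univ par_mono

namespace A6

open Equiv

/-- The centraliser of a permutation in `A₆`. -/
def C (t : Perm (Fin 6)) : Subgroup (alternatingGroup (Fin 6)) :=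
  (Subgroup.centralizer {t}).comap (Subgroup.subtype _)

theorem mem_C {t : Perm (Fin 6)} {g : alternatingGroup (Fin 6)} : g ∈ C t ↔ t * g = g * t := by
  simp [C, Subgroup.mem_centralizer_iff, Subgroup.mem_subgroupOf]

theorem card : Nat.card (alternatingGroup (Fin 6)) = 360 := by
  rw [nat_card_alternatingGroup]; simp [Nat.factorial]

theorem tl_mem (i : Fin 8) : tl i ∈ alternatingGroup (Fin 6) := by
  fin_cases i <;> simp [tl]

theorem tl_mem' (i : Fin 8) : ⟨_, tl_mem i⟩ ∈ C (swap 4 5) ⊓ C t2 := by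
  simp only [Subgroup.mem_inf, mem_C]
  revert i; decide

theorem exists_sylow : ∃ U : Sylow 2 (alternatingGroup (Fin 6)),
    (U : Subgroup _) = C (swap 4 5) ⊓ C t2 ∧ Nat.card U = 8 := by
  obtain ⟨U, hU⟩ := IsPGroup.exists_le_sylow (p := 2) (P := C (swap 4 5) ⊓ C t2) fun g => ⟨2, by
    have := key' g
    rw [if_pos (mem_C.1 g.2.1)] at this
    exact Subtype.ext (Subtype.ext (this (mem_C.1 g.2.2)))⟩
  have h : Nat.card U = 8 := by
    rw [U.card_eq_multiplicity, card, show 360 = 2 ^ 3 * 45 from rfl,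
      Nat.factorization_mul (by simp) (by simp), Nat.prime_two.factorization_pow]
    simp [Nat.factorization_eq_zero_of_not_dvd]
  refine ⟨U, (Subgroup.eq_of_le_of_card_ge hU ?_).symm, h⟩
  simpa [h] using Nat.card_le_card_of_injective (fun i => (⟨_, tl_mem' i⟩ : ↥(C _ ⊓ C t2)))
    fun i j e => (by decide : Function.Injective tl) (congrArg (fun x => x.1.1) e)

theorem le_or {M : Subgroup (alternatingGroup (Fin 6))} (hM : M ≠ ⊤)
    (h : C (swap 4 5) ⊓ C t2 ≤ M) : M ≤ C (swap 4 5) ∨ M ≤ C t2 := by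
  by_contra! h0
  obtain ⟨g, hg, h1, h2⟩ : ∃ g ∈ M, g ∉ C (swap 4 5) ∧ g ∉ C t2 := by
    obtain ⟨x, hx, h1⟩ := SetLike.not_le_iff_exists.1 h0.1
    obtain ⟨y, hy, h2⟩ := SetLike.not_le_iff_exists.1 h0.2
    by_cases h3 : x ∈ C t2
    · by_cases h4 : y ∈ C (swap 4 5)
      · exact ⟨x * y, mul_mem hx hy, by rwa [mul_mem_cancel_right h4],
          by rwa [mul_mem_cancel_left h3]⟩
      · exact ⟨y, hy, h4, h2⟩
    · exact ⟨x, hx, h1, h3⟩
  have h3 := key' g
  rw [if_neg (mt mem_C.2 h1)] at h3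
  have h4 : ∀ n : ℕ, n.Prime → Ord n g.1 → n ∣ Nat.card M := by
    rintro n hn ⟨a, b, h4, i, h5⟩
    have := Fact.mk hn
    have h6 := mul_mem (mul_mem (mul_mem hg (h (tl_mem' a))) hg) (h (tl_mem' b))
    rw [← orderOf_eq_prime (x := g * ⟨_, tl_mem a⟩ * g * ⟨_, tl_mem b⟩) (p := n)
      (Subtype.ext (Equiv.ext fun i => (congrFun (Perm.iterate_eq_pow
        (g.1 * tl a * g.1 * tl b) n) i).symm.trans (h4 i)))
      fun e => h5 (congrArg (·.1 i) e)]
    exact M.orderOf_dvd_natCard h6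
  obtain ⟨h5, h6⟩ := h3.resolve_left (mt mem_C.2 h2)
  obtain ⟨U, hU, hU'⟩ := exists_sylow
  have h7 := hU' ▸ Subgroup.card_dvd_of_le (hU.le.trans h)
  have := alternatingGroup.isSimpleGroup (α := Fin 6) (by simp)
  have h8 := card_dvd_of_core (core_of_simple hM)
  have h9 := M.card_mul_index
  obtain ⟨k, hk⟩ : 8 * 5 * 3 ∣ Nat.card M := Nat.Coprime.mul_dvd_of_dvd_of_dvd (by norm_num)
    (Nat.Coprime.mul_dvd_of_dvd_of_dvd (by norm_num) h7 (h4 5 (by norm_num) h5))
    (h4 3 (by norm_num) h6)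
  rw [card] at h8 h9
  have h10 : M.index ≤ 3 := Nat.le_of_dvd (by norm_num) (Dvd.intro_left k (by
    rw [hk] at h9; nlinarith))
  interval_cases M.index <;> simp [Nat.factorial] at h8

theorem setup {X : Type*} [Group X] (e : X ≃* alternatingGroup (Fin 6)) {U : Sylow 2 X}
    {A : Subgroup (MulAut X)} {Y : Subgroup X} {c : Prop} (h : Setup 2 (U : Subgroup X) A Y c) :
    ¬ c ∧ Y ≤ U := by
  obtain ⟨U₀, hU, -⟩ := exists_sylow
  obtain ⟨g, hg⟩ := MulAction.exists_smul_eq (alternatingGroup (Fin 6)) U₀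
    (U.comapOfInjective e.symm.toMonoidHom e.symm.injective
      ((MonoidHom.range_eq_top (f := e.symm.toMonoidHom)).2 e.symm.surjective ▸ le_top))
  have h1 := h.comap ((MulAut.conj g).trans e.symm)
  have h2 : (U : Subgroup X).comap ((MulAut.conj g).trans e.symm : _ →* X) = C _ ⊓ C t2 :=
    (SetLike.ext fun x => (SetLike.ext_iff.1 hg (MulAut.conj g x)).symm.trans
      (Subgroup.smul_mem_pointwise_smul_iff (a := MulAut.conj g))).trans hU
  have n1 : ¬ C (swap 4 5) ≤ C t2 := fun h => absurd (mem_C.1 (h (mem_C.2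
    (by decide : _ = (⟨swap 0 1 * swap 1 2, by simp⟩ : alternatingGroup (Fin 6)).1 * _))))
    (by decide)
  have n2 : ¬ C t2 ≤ C (swap 4 5) := fun h => absurd (mem_C.1 (h (mem_C.2
    (by decide : _ = (⟨swap 0 4 * swap 2 5, by simp⟩ : alternatingGroup (Fin 6)).1 * _))))
    (by decide)
  obtain ⟨h3, h4, -⟩ := h1.two (Y₁ := C (swap 4 5)) (Y₂ := C t2) (fun e => n2 (e ▸ le_top))
    (fun e => n1 (e ▸ le_top))
    (h2.le.trans inf_le_left) (h2.le.trans inf_le_right) (by
      by_contra h3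
      exact (le_or h3 (inf_le_left.trans le_sup_left)).elim (fun h => n2 (le_sup_right.trans h))
        fun h => n1 (le_sup_left.trans h)) fun M hM hM' => le_or hM (h2.ge.trans hM')
  exact ⟨h3, (Subgroup.comap_le_comap_of_surjective ((MulAut.conj g).trans e.symm).surjective).1
    (h4.trans h2.ge)⟩

end A6

theorem Setup.normalizer_le {p : ℕ} {K : Type*} [Group K] [Finite K] {U Y : Subgroup K}
    {A : Subgroup (MulAut K)} {c : Prop} (h : Setup p U A Y c)
    (hU : Subgroup.normalizer (U : Set K) ≠ ⊤) : Subgroup.normalizer (U : Set K) ≤ Y :=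
  h.max _ hU Subgroup.le_normalizer fun σ hσ z hz => Subgroup.mem_normalizer_fintype fun u hu => by
    simpa using h.invU σ hσ _ ((Subgroup.mem_normalizer_iff.1 hz _).1 (h.invU _ (inv_mem hσ) u hu))

theorem setup_L28 {K : Type*} [Group K] [Finite K] (hK : Nat.card K = 504)
    (hd : ∀ H : Subgroup K, H ≠ ⊤ → 9 ≤ H.index) {U : Sylow 3 K} {A : Subgroup (MulAut K)}
    {Y : Subgroup K} {c : Prop} (h : Setup 3 (U : Subgroup K) A Y c)
    (hU : Subgroup.normalizer (U : Set K) ≠ ⊤) : Y ≤ Subgroup.normalizer (U : Set K) := by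
  have h1 := Subgroup.relIndex_mul_index (h.normalizer_le hU)
  have h2 := hd _ hU
  have h3 := hd _ h.ne
  have h4 := card_sylow_modEq_one 3 K
  have h5 := (index_data (p := 3) (k := 2) (m := 56) hK (by norm_num) (M := U) U.not_dvd_index
    default).1
  have h6 : (Subgroup.normalizer (U : Set K)).index ∈ Nat.divisors 56 := Nat.mem_divisors.2
    ⟨(Subgroup.index_dvd_of_le Subgroup.le_normalizer).trans (Dvd.intro_left _ h5), by norm_num⟩
  rw [U.card_eq_index_normalizer] at h4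
  have h7 := (by decide : ∀ n ∈ Nat.divisors 56, 9 ≤ n → n ≡ 1 [MOD 3] → n = 28) _ h6 h2 h4
  erw [h7] at h1
  obtain e | e := (by decide : ∀ n ∈ Nat.divisors 28, n ≤ 3 → n = 1 ∨ n = 2) _
    (Nat.mem_divisors.2 ⟨Dvd.intro _ h1, by norm_num⟩) (by nlinarith)
  · exact Subgroup.relIndex_eq_one.1 e
  · rw [← U.normalizer_normalizer]
    exact (Subgroup.normal_subgroupOf_iff_le_normalizer (h.normalizer_le hU)).1
      (Subgroup.normal_of_index_eq_two e)

namespace SBN

variable {G : Type*} [Group G] [Finite G] (S : SBN 2 G) {K : Subgroup G} [IsSimpleGroup K]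
  (hK : K.index = 2)
include hK

theorem not_le_par {s t : S.P.S} (h : s ≠ t) : ¬ K ≤ par S.P {s} := fun h1 => by
  have h2 : par S.P {s} = ⊤ := Subgroup.index_eq_one.1 (((Nat.dvd_prime Nat.prime_two).1
    ((Subgroup.index_dvd_of_le h1).trans hK.dvd)).resolve_right fun e => S.split.not_dvd_index
      (e.symm.dvd.trans (Subgroup.index_dvd_of_le (S.split.le.trans (B_le_par _)))))
  obtain ⟨r, hr, e⟩ := mem_of_mem_parabolic (by rintro _ ⟨a, -, rfl⟩; exact a.2) t.2
    (h2.ge (Subgroup.mem_top (t : G)))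
  exact h (hr.symm.trans (Subtype.ext e))

theorem eq_top_of_par [Nonempty S.P.S] {W : Subgroup K}
    (h : ∀ s, (par S.P {s}).comap K.subtype ≤ W) : W = ⊤ := by
  have := K.normal_of_index_eq_two hK
  let W' : Subgroup G := ⨆ s, par S.P {s} ⊓ K
  have h1 : S.P.B ≤ Subgroup.normalizer (W' : Set G) := fun b hb =>
    Subgroup.mem_normalizer_fintype fun w hw => (iSup_le fun s x hx => le_iSup
      (fun s => par S.P {s} ⊓ K) s (Subgroup.mem_inf.2 ⟨mul_mem (mul_mem (B_le_par _ hb) hx.1)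
        (inv_mem (B_le_par _ hb)), this.conj_mem x hx.2 b⟩) : W' ≤ W'.comap (MulAut.conj b : G →* G)) hw
  have h2 : W' ≤ W.map K.subtype := iSup_le fun s x hx => ⟨⟨x, hx.2⟩, h s hx.1, rfl⟩
  obtain ⟨u, hu, hu'⟩ := SetLike.not_le_iff_exists.1 (S.not_U_le hK)
  have h3 : par S.P Set.univ ≤ S.P.B ⊔ W' := parabolic_le le_sup_left (by
    rintro _ ⟨s, -, rfl⟩
    by_cases hs : (s : G) ∈ K
    · exact Subgroup.mem_sup_right (le_iSup (fun s => par S.P {s} ⊓ K) s ⟨coe_mem_par rfl, hs⟩)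
    · simpa using Subgroup.mul_mem_sup (S.split.le hu) (le_iSup (fun s => par S.P {s} ⊓ K) s
        (Subgroup.mem_inf.2 ⟨mul_mem (inv_mem (B_le_par _ (S.split.le hu))) (coe_mem_par rfl),
          (Subgroup.mul_mem_iff_of_index_two hK).2 (by simp [hu', hs])⟩)))
  refine eq_top_iff.2 fun k _ => ?_
  have h4 : (k : G) ∈ ((S.P.B ⊔ W' : Subgroup G) : Set G) := h3 (by rw [par_univ]; trivial)
  rw [Subgroup.coe_mul_of_left_le_normalizer_right _ _ h1] at h4
  obtain ⟨b, hb, w, hw, e⟩ := h4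
  obtain ⟨w, hw', rfl⟩ := h2 hw
  have h5 : k * w⁻¹ ∈ W := h (Classical.arbitrary _) (B_le_par _ (show (k : G) * (w : G)⁻¹ ∈ _ by
    rw [← e]; simpa using hb))
  simpa using mul_mem h5 hw'

theorem setup_of_card (hn : ¬ IsMulCommutative K) (h2 : ∃ s t : S.P.S, s ≠ t)
    (hc : Nat.card (MulAut K) ≤ Nat.card G) {U Y : Subgroup K} {A : Subgroup (MulAut K)} {c : Prop}
    (h : Setup 2 U A Y c) : False := by
  have := K.normal_of_index_eq_two hK
  have h1 : Function.Injective (MulAut.conjNormal : G →* MulAut K) :=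
    (injective_iff_map_eq_one _).2 fun g hg => S.eq_one_of_comm hK hn fun k hk => by
      have := congrArg Subtype.val (DFunLike.congr_fun hg ⟨k, hk⟩)
      exact (mul_inv_eq_iff_eq_mul.1 this).symm
  obtain ⟨g, hg⟩ := S.exists_conj_le (h.pgp.comap_of_injective _ h1)
  obtain ⟨s, t, hst⟩ := h2
  have : Nonempty S.P.S := ⟨s⟩
  have h3 := h.comap (MulAut.conjNormal g)
  have h4 : ∀ x : G, MulAut.congr (MulAut.conjNormal g : MulAut K) (MulAut.conjNormal x) ∈ A →
      x ∈ S.U := fun x hx => by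
    simpa [mul_assoc] using hg (g * x * g⁻¹) (Subgroup.mem_comap.2 (Set.mem_of_eq_of_mem (by
      ext k; simp [mul_assoc]) hx))
  refine h3.ne (S.eq_top_of_par hK fun r => h3.max _ (fun e => ?_) (fun u hu => B_le_par _
    (S.split.le (h4 u (Set.mem_of_eq_of_mem (by ext; simp [mul_assoc]) (h3.conj u hu))))) fun σ hσ z hz => ?_)
  · obtain ⟨r', hr⟩ : ∃ r', r ≠ r' := by
      by_cases e : r = s
      exacts [⟨t, e ▸ hst⟩, ⟨s, e⟩]
    exact S.not_le_par hK hr fun k hk => e.ge (Subgroup.mem_top (⟨k, hk⟩ : K))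
  · obtain ⟨x, rfl⟩ := (h1.bijective_of_nat_card_le hc).2 σ
    have := B_le_par {r} (S.split.le (h4 x hσ))
    exact mul_mem (mul_mem this hz) (inv_mem this)

theorem setup_of_dif (hirr : S.P.Irreducible) (hd : S.Dif) (hi : ∀ x : G, orderOf x = 2 → x ∈ K)
    {X : Type*} [Group X] (e : X ≃* K) {U : Sylow 2 X} {Y : Subgroup X} {A : Subgroup (MulAut X)}
    {c : Prop} (h : Setup 2 (U : Subgroup X) A Y c) : False := by
  have := K.normal_of_index_eq_two hK
  obtain ⟨U, A, Y, h⟩ : ∃ (U : Sylow 2 K) (A Y : _), Setup 2 (U : Subgroup K) A Y c :=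
    ⟨U.comapOfInjective e.symm.toMonoidHom e.symm.injective
      ((MonoidHom.range_eq_top (f := e.symm.toMonoidHom)).2 e.symm.surjective ▸ le_top), _, _,
      h.comap e.symm⟩
  obtain ⟨s, t, h1, h2⟩ := hd
  have hst : s ≠ t := by rintro rfl; exact h2 rfl
  have h3 : ∀ r : S.P.S, ∃ r', r' ≠ r := fun r => by
    rcases h1 r with rfl | rfl
    exacts [⟨_, hst.symm⟩, ⟨_, hst⟩]
  have hb := S.big_of_index_two hirr h3 hK (S.not_U_le hK) hi
  have : Nonempty S.P.S := ⟨s⟩
  obtain ⟨g, hg⟩ := S.exists_conj_le (U.isPGroup'.map K.subtype)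
  have h4 := h.comap (MulAut.conjNormal g)
  have h5 : (U : Subgroup K).comap ((MulAut.conjNormal g : MulAut K) : K →* K) =
      S.U.comap K.subtype :=
    ((U.comapOfInjective (MulAut.conjNormal g : MulAut K).toMonoidHom (MulEquiv.injective _)
      ((MonoidHom.range_eq_top (f := (MulAut.conjNormal g : MulAut K).toMonoidHom)).2
        (MulEquiv.surjective _) ▸ le_top)).is_maximal' S.split.pgp.comap_subtype fun u hu => by
          simpa [mul_assoc, Subgroup.mem_subgroupOf] using hg _ ⟨_, hu, rfl⟩).symm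
  rw [h5] at h4
  have hn : ∀ {s t : S.P.S}, s ≠ t → (par S.P {s}).comap K.subtype ≠ ⊤ := fun h e =>
    S.not_le_par hK h fun k hk => e.ge (Subgroup.mem_top (⟨k, hk⟩ : K))
  have hl : ∀ s, S.U.comap K.subtype ≤ (par S.P {s}).comap K.subtype := fun s =>
    Subgroup.comap_mono (S.split.le.trans (B_le_par _))
  obtain ⟨-, -, σ, hσ, h6, h7⟩ := h4.two (hn hst) (hn hst.symm) (hl s) (hl t)
    (S.eq_top_of_par hK fun r => by
      rcases h1 r with rfl | rfl
      exacts [le_sup_left, le_sup_right]) fun M hM hM' => by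
    rcases hb.le_par_or (M := M.map K.subtype) (fun u hu => ⟨⟨u, hu.2⟩, hM' hu.1, rfl⟩) with
      ⟨J, hJ, h6⟩ | h6
    · obtain ⟨r, hr⟩ := (Set.ne_univ_iff_exists_notMem J).1 hJ
      rw [Subgroup.map_le_iff_le_comap] at h6
      rcases h1 r with rfl | rfl
      · exact .inr (h6.trans (Subgroup.comap_mono (par_mono fun a ha =>
          (h1 a).resolve_left fun e => hr (e ▸ ha))))
      · exact .inl (h6.trans (Subgroup.comap_mono (par_mono fun a ha =>
          (h1 a).resolve_right fun e => hr (e ▸ ha))))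
    · obtain ⟨x, hx, hxK, hx1⟩ := hb.X s
      have h7 : (⟨x, hxK⟩ : K) ∈ M.normalCore := fun c => by
        obtain ⟨y, hy, e⟩ := h6 c x ⟨hx.1, hxK⟩
        exact (Subtype.ext e : y = c * ⟨x, hxK⟩ * c⁻¹) ▸ hy
      rw [core_of_simple hM] at h7
      exact absurd (congrArg Subtype.val (Subgroup.mem_bot.1 h7)) hx1
  have key : ∀ {s t : S.P.S}, (∀ y ∈ (par S.P {t}).comap K.subtype,
      σ y ∈ (par S.P {s}).comap K.subtype) → Nat.card ((S.R s).comap K.subtype) ≤
        Nat.card ((S.R t).comap K.subtype) := fun {s t} h => by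
    obtain ⟨x, hx, hxK, hx1⟩ := hb.X t
    have h8 : (t : G)⁻¹ * x * t ∈ par S.P {t} := mul_mem (mul_mem (inv_mem (coe_mem_par rfl))
      (B_le_par _ (S.split.le hx.1))) (coe_mem_par rfl)
    have h9 := (mem_par_singleton.1 h8).resolve_left fun e =>
      hx1 (S.eq_one_of_X hx (S.mem_R.2 ⟨hx.1, e⟩))
    let a : K := ⟨_, show (t : G)⁻¹ * x * t ∈ K by simpa using hb.normal.conj_mem x hxK (t : G)⁻¹⟩
    refine Nat.card_le_card_of_injective (fun u => ⟨σ⁻¹ u, S.mem_R.2
      ⟨h4.invU _ (inv_mem hσ) _ u.2.1, S.reg' h9 (coe_mem_cell_gen _ t)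
        (h4.invU _ (inv_mem hσ) _ u.2.1) (S.split.le ?_)⟩⟩)
      fun u v e => Subtype.ext (σ⁻¹.injective (congrArg Subtype.val e))
    have h10 := h4.invU _ (inv_mem hσ) ((σ a)⁻¹ * u * σ a) (S.conj_mem_R (h a h8) u.2).1
    simp only [map_mul, map_inv, MulAut.inv_apply_self] at h10
    exact h10
  have k2 : ∀ s, Nat.card (S.R s) = Nat.card ((S.R s).comap K.subtype) * 2 := fun s => by
    obtain ⟨r, hr, hr'⟩ := S.exists_not_le_R hirr h3 (S.not_U_le hK) s
    have h8 : K.relIndex (S.R s) = 2 := ((Nat.dvd_prime Nat.prime_two).1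
      ((K.relIndex_dvd_index_of_normal _).trans hK.dvd)).resolve_left fun e =>
        hr' (Subgroup.relIndex_eq_one.1 e hr)
    rw [← (K.subgroupOf (S.R s)).card_mul_index, ← Subgroup.relIndex, h8,
      ← Subgroup.card_map_of_injective (S.R s).subtype_injective,
      ← Subgroup.card_map_of_injective K.subtype_injective, Subgroup.subgroupOf_map_subtype,
      ← Subgroup.subgroupOf, Subgroup.subgroupOf_map_subtype, inf_comm]
  exact h2 (by rw [k2, k2, le_antisymm (key h7) (key h6)])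

end SBN

theorem chev_normalizer_ne_top {p : ℕ} [Fact p.Prime] {X : Type*} [Group X] [Finite X]
    (h : IsChevSimple p X) (U : Sylow p X) : Subgroup.normalizer (U : Set X) ≠ ⊤ := fun e => by
  have := simple_of_chev h
  have hn : ¬ IsMulCommutative X := by
    rcases h with h | ⟨-, h⟩ | ⟨-, F, _, _, hF, ⟨e⟩⟩
    · obtain ⟨S, -, ⟨s, hs⟩, h1, -⟩ := exists_sbn h
      exact fun _ => gen_not_mem (P := S.P) ⟨s, hs⟩ (S.split.le
        ((h1.symm.trans (Subgroup.normalClosure_eq_self _)).le (Subgroup.mem_top _)))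
    · obtain ⟨G, _, _, K, S, _, -, h1, -, -, -, ⟨e⟩⟩ := exists_over h
      exact fun _ => h1 ⟨⟨fun a b => e.symm.injective (by simp [mul_comm'])⟩⟩
    · exact not_comm_of_card (by rw [Nat.card_congr e.toEquiv, card_L28 hF]; norm_num)
  rcases IsSimpleGroup.eq_bot_or_eq_top_of_normal (U : Subgroup X)
    (Subgroup.normalizer_eq_top_iff.1 e) with e | e
  · exact chev_pCore_ne_bot h U.not_dvd_index (e ▸ bot_ne_top) (by
      rw [e]; exact Subsingleton.elim _ _)
  · have h1 : IsPGroup p X := (e ▸ U.isPGroup').of_equiv Subgroup.topEquiv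
    rcases IsSimpleGroup.eq_bot_or_eq_top_of_normal (Subgroup.center X) inferInstance with e | e
    · exact (Subgroup.nontrivial_iff_ne_bot _).1 h1.center_nontrivial e
    · exact hn ⟨⟨fun a b => Subgroup.mem_center_iff.1 (e.ge (Subgroup.mem_top b)) a⟩⟩

theorem setup_tits {X : Type*} [Group X] (e : X ≃* TitsGroup) {U : Sylow 2 X} {Y : Subgroup X}
    {A : Subgroup (MulAut X)} {c : Prop} (hS : Setup 2 (U : Subgroup X) A Y c) : False := by
  obtain ⟨a, b, c, hD⟩ := exists_titsData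
  obtain ⟨R, E, hE, T, h, hA⟩ := exists_F4 (K := ZMod 2) (m := 0) rfl
  replace hA : twistedF4 (ZMod 2) 1 = _ := hA
  replace h : H39.IsF4 (ι := Fin chevF4.nroots) (R := R.toRS) T 1 := h
  let M := Mod.ofModel (twModel hA)
  have := hD.simple
  exact (M.sbn h.good h.h3 2).setup_of_dif hD.index
    (M.bnPair_irreducible h.good (R.connected (by simp))) (dif_F4 h M)
    (fun x hx => hD.mem_commutator ((sq x).symm.trans (orderOf_dvd_iff_pow_eq_one.1 hx.dvd))) e hS

theorem setup_U33 {F : Type*} [Field F] [Fintype F] (hF : Fintype.card F = 9) {X : Type*} [Group X]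
    (e : X ≃* PSU 3 F 3) {U Y : Subgroup X} {A : Subgroup (MulAut X)} {c : Prop}
    (h : Setup 2 U A Y c) : False := by
  obtain ⟨_, h1, h2, h3, ⟨e'⟩⟩ := g2_data hF
  obtain ⟨R, E, hE⟩ := exists_isMat (D := chevG2) (by simp) (ZMod 2)
  obtain ⟨S, -, h4, -⟩ := (modTriv hE.grp_faith hE.grp_top).preRk_two (good_triv _ _) hE.grp_R3 2
    (R.connected (by simp)) (fun _ => rfl) (i := (0 : Fin 2)) (j := (1 : Fin 2))
    (by decide : (1 : Fin 2) ≠ 0) (by decide : (1 : Fin 2) ≠ 0)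
  have hn : ¬ IsMulCommutative (commutator (chevG2.group (ZMod 2))) :=
    not_comm_of_card (by rw [h2]; norm_num)
  have h5 : Nat.card (chevG2.group (ZMod 2)) = 12096 := Cfsg.Agent.S1059.result (q := 2) (by simp)
  exact S.setup_of_card h1 hn h4 ((Nat.card_congr (MulAut.congr e').toEquiv).ge.trans
    ((card_aut_U33 hF).trans h5.ge)) (h.comap (e.trans e').symm)

theorem setup_chev {p : ℕ} [Fact p.Prime] {X : Type*} [Group X] [Finite X] (hX : IsChevSimple p X)
    {U : Sylow p X} {A : Subgroup (MulAut X)} {Y : Subgroup X} {c : Prop}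
    (h : Setup p (U : Subgroup X) A Y c) : Y ≤ Subgroup.normalizer (U : Set X) ∧
    (IsLieRankOneChar p X ∨ (p = 2 ∧ ¬ c ∧
      ((∃ (F : Type) (_ : Field F) (_ : Fintype F) (_ : CharP F 2),
        Nonempty (X ≃* Matrix.ProjectiveSpecialLinearGroup (Fin 3) F)) ∨
      (∃ (F : Type) (_ : Field F) (_ : Fintype F) (_ : CharP F 2), 4 ≤ Fintype.card F ∧
        Nonempty (X ≃* PSp 2 F)) ∨ Nonempty (X ≃* alternatingGroup (Fin 6))))) := by
  have hN := chev_normalizer_ne_top hX U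
  rcases hX with hX | ⟨rfl, ⟨⟨e⟩⟩ | ⟨F, _, _, hF, ⟨e⟩⟩ | ⟨⟨e⟩⟩⟩ | ⟨rfl, F, _, _, hF, ⟨e⟩⟩
  · refine ⟨?_, (setup_lie hX h).imp_right fun h => ⟨h.1, h.2.1, h.2.2.imp_right .inl⟩⟩
    obtain ⟨S, hU, h1, h2, -⟩ := exists_sbn_sylow hX U
    have := h2.to_subtype
    refine ((hU ▸ h).lie h1).1.le.trans (S.split.B_le_normalizer.trans ?_)
    rw [hU]; rfl
  · exact ⟨(A6.setup e h).2.trans Subgroup.le_normalizer,
      .inr ⟨rfl, (A6.setup e h).1, .inr (.inr ⟨e⟩)⟩⟩
  · exact (setup_U33 hF e h).elim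
  · exact (setup_tits e h).elim
  · refine ⟨setup_L28 ((Nat.card_congr e.toEquiv).trans (card_L28 hF)) (fun H hH => ?_) h hN,
      .inl (.inr (.inr (.inr ⟨rfl, .inr ⟨F, inferInstance, inferInstance, hF, ⟨e⟩⟩⟩)))⟩
    rw [← H.index_map_equiv e]
    exact (Cfsg.Agent.S0806.result hF (by decide)).1 _ (map_ne_top e hH)

end H62.LB
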